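import Mathlib
import Cfsg.Agent.Lib.EL.Defs
import Cfsg.Agent.Lib.Ward.Main
import Cfsg.Agent.Lib.Ward.Loc
import Cfsg.Agent.Lib.Ward.Frame
import Cfsg.Agent.Lib.JK.Main
import Cfsg.Prelude.Def_LocalEven

/-! A simple group with a frame is of Ree type or `J₁`. -/

set_option autoImplicit false

namespace CfsgLib.EL

open Subgroup Cfsg CfsgLib.Abel2
open scoped MatrixGroups

variable {G : Type*} [Group G] [Finite G] {F : Type} [Field F] [Fintype F] {t : G}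
  {ι : PSL(2, F) →* G}

theorem isoJ1_of_frame (h : Ward.Frame t ι) (hq : Fintype.card F = 5) : Spor.IsoJ1 G := by
  obtain ⟨e⟩ := Ward.psl_equiv_A5 (Or.inr hq)
  refine JK.Hyp.isoJ1 (t := t) (φ := ι.comp e.symm.toMonoidHom)
    ⟨⟨h.t_ord, h.inj.comp e.symm.injective, fun p => (h.comm _).symm, fun x hx => ?_⟩,
      fun u hu => ?_⟩
  · obtain ⟨u, hu⟩ := (h.mem x).1 (JK.mem_cent.2 hx)
    exact ⟨e u, by simpa using hu⟩
  · obtain ⟨g, hg⟩ := isConj_iff.1 (h.one t u h.t_ord hu)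
    exact ⟨g, hg.symm⟩

theorem ree_or_j1 (hs : IsSimpleGroup G) (hn : ¬ IsMulCommutative G) (h : Ward.Frame t ι)
    (h3 : 3 < Fintype.card F) (h8 : Fintype.card F % 8 = 3 ∨ Fintype.card F % 8 = 5) :
    IsReeType G ∨ Spor.IsoJ1 G := by
  by_cases h5 : Fintype.card F = 5
  · exact Or.inr (isoJ1_of_frame h h5)
  obtain ⟨m, hm, hF, -⟩ := Ward.order_of_V h h8 (by omega) (h.wardV h8 h3)
  refine Or.inl ⟨hs, hn, t, ι.range, m, hm, h.t_ord, h.odd_index, ⟨zpowers_le.2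
    (mem_centralizer_singleton_iff.2 rfl), ?_, ?_, eq_bot_iff.2 ?_, le_antisymm (sup_le (zpowers_le.2
    (mem_centralizer_singleton_iff.2 rfl)) ?_) fun g hg => ?_⟩, F, _, _, hF,
    ⟨(MonoidHom.ofInjective h.inj).symm⟩⟩
  · rintro _ ⟨u, rfl⟩
    exact (h.mem _).2 ⟨u, Or.inl rfl⟩
  · rintro a ha _ ⟨u, rfl⟩
    rcases (Ward.cx_mem_zpowers' h.tt).1 ha with rfl | rfl
    · simp
    · exact (h.comm u).symm
  · rintro a ⟨ha, u, rfl⟩
    exact ((Ward.cx_mem_zpowers' h.tt).1 ha).resolve_right (h.ne u)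
  · rintro _ ⟨u, rfl⟩
    exact (h.mem _).2 ⟨u, Or.inl rfl⟩
  · obtain ⟨u, rfl | rfl⟩ := (h.mem g).1 hg
    · exact mem_sup_right ⟨u, rfl⟩
    · exact mul_mem_sup (mem_zpowers t) ⟨u, rfl⟩

end CfsgLib.EL
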